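import Mathlib
import Cfsg.Agent.Helper10.O7920Defs

/-! # CALL S2490, piece K1A: a Sylow subgroup of a normal subgroup and a Frattini complement piece -/

set_option autoImplicit false

namespace Cfsg.Agent.Helper28.O7920K1A

open Subgroup Cfsg.Agent.Helper10.O7920

-- piece K1A
theorem frattini_pair {G : Type*} [Group G] [Finite G] (N : Subgroup G) [N.Normal]
    {p r a b m : ℕ} [Fact p.Prime] [Fact r.Prime] (hN : Nat.card N = p ^ a * m) (hm : ¬ p ∣ m)
    (hr : ¬ r ∣ Nat.card N) (hrb : r ^ b ∣ Nat.card G) :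
    ∃ S R : Subgroup G, Nat.card S = p ^ a ∧ Nat.card R = r ^ b ∧
      R ≤ normalizer (S : Set G) := by
  have hrp : r.Prime := Fact.out
  obtain ⟨P⟩ : Nonempty (Sylow p ↥N) := inferInstance
  have hPcard : Nat.card (P : Subgroup ↥N) = p ^ a :=
    Cfsg.Agent.Helper9.OrdTools.sylow_card a m hN hm P
  have hS : Nat.card ((P : Subgroup ↥N).map N.subtype) = p ^ a := by
    rw [Subgroup.card_map_of_injective N.subtype_injective, hPcard]
  have hfr := Sylow.normalizer_sup_eq_top P
  have hidx : N.index ∣ Nat.card (normalizer (((P : Subgroup ↥N).map N.subtype : Subgroup G) : Set G)) := by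
    have h1 : N.relIndex (normalizer (((P : Subgroup ↥N).map N.subtype : Subgroup G) : Set G) ⊔ N) =
        N.relIndex (normalizer (((P : Subgroup ↥N).map N.subtype : Subgroup G) : Set G)) :=
      Subgroup.relIndex_sup_right _ _
    rw [hfr, Subgroup.relIndex_top_right] at h1
    rw [h1]
    exact Subgroup.relIndex_dvd_card _ _
  have hcop : Nat.Coprime (r ^ b) (Nat.card N) :=
    Nat.Coprime.pow_left b ((Nat.Prime.coprime_iff_not_dvd hrp).mpr hr)
  have hrb' : r ^ b ∣ N.index := by
    rw [← Subgroup.card_mul_index N] at hrb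
    exact hcop.dvd_of_dvd_mul_left hrb
  obtain ⟨R0, hR0⟩ := Sylow.exists_subgroup_card_pow_prime r (hrb'.trans hidx)
  refine ⟨(P : Subgroup ↥N).map N.subtype, R0.map (Subgroup.subtype _), hS, ?_, ?_⟩
  · rw [Subgroup.card_map_of_injective (Subgroup.subtype_injective _), hR0]
  · exact Subgroup.map_subtype_le _

end Cfsg.Agent.Helper28.O7920K1A
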