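import Mathlib
import Cfsg.Agent.Helper10.O7920Defs

/-!
# CALL S2490, piece KER

If the Sylow `p`-subgroups of a finite group have order `p` and there is more than one of
them, then the kernel of the conjugation action on `Sylow p G` has order prime to `p`.
-/

set_option autoImplicit false

namespace Cfsg.Agent.Helper28.O7920KER

open Subgroup Cfsg.Agent.Helper10.O7920

theorem sylow_ker_not_dvd {G : Type*} [Group G] [Finite G] {p : ℕ} [Fact p.Prime]
    (hP : ∀ P : Sylow p G, Nat.card (P : Subgroup G) = p)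
    (hn : Nat.card (Sylow p G) ≠ 1) :
    ¬ p ∣ Nat.card (MulAction.toPermHom G (Sylow p G)).ker := by
  intro hdvd
  obtain ⟨x, hx⟩ := exists_prime_orderOf_dvd_card' (G := (MulAction.toPermHom G (Sylow p G)).ker)
    p hdvd
  have hxo : orderOf (x : G) = p := by rw [Subgroup.orderOf_coe]; exact hx
  obtain ⟨P0, hP0⟩ := Cfsg.Agent.Helper9.OrdTools.exists_sylow_of_orderOf hP hxo
  have hfix : ∀ Q : Sylow p G, (x : G) • Q = Q := by
    intro Q
    have h1 : MulAction.toPermHom G (Sylow p G) (x : G) = 1 := x.2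
    have h2 := congrArg (fun σ : Equiv.Perm (Sylow p G) => σ Q) h1
    simpa using h2
  have hall : ∀ Q : Sylow p G, Q = P0 := by
    intro Q
    apply Cfsg.Agent.Helper8.SylFix.eq_of_le_normalizer P0 Q
    rw [← hP0, Subgroup.zpowers_le]
    exact Sylow.smul_eq_iff_mem_normalizer.mp (hfix Q)
  apply hn
  have : Subsingleton (Sylow p G) := ⟨fun a b => (hall a).trans (hall b).symm⟩
  have hne : Nonempty (Sylow p G) := ⟨P0⟩
  exact (Nat.card_eq_one_iff_unique).mpr ⟨this, hne⟩
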