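import Mathlib

/-!
# Point stabilisers of a coset action inside the subgroup (helper28)

The stabiliser in `H` of the coset `x H` is `H ⊓ x H x⁻¹`; behaviour of these subgroups under double
cosets and under isomorphisms.
-/

set_option autoImplicit false

namespace Cfsg.Agent.Helper28

/-- The stabiliser in `H` of the coset `x H` is `H ⊓ x H x⁻¹`. -/
theorem stabilizer_mk_eq_inf_conj {G : Type*} [Group G] (H : Subgroup G) (x : G) :
    MulAction.stabilizer H (QuotientGroup.mk x : G ⧸ H) =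
      (H ⊓ H.map (MulAut.conj x).toMonoidHom).subgroupOf H := by
  ext ⟨h, hh⟩
  rw [MulAction.mem_stabilizer_iff, Subgroup.mem_subgroupOf]
  have e : (⟨h, hh⟩ : H) • (QuotientGroup.mk x : G ⧸ H) = QuotientGroup.mk (h * x) := rfl
  rw [e, QuotientGroup.eq, Subgroup.mem_inf]
  constructor
  · intro h1
    refine ⟨hh, ((h * x)⁻¹ * x)⁻¹, H.inv_mem h1, ?_⟩
    show x * ((h * x)⁻¹ * x)⁻¹ * x⁻¹ = h
    group
  · rintro ⟨_, k, hk, hkh⟩
    have e2 : x * k * x⁻¹ = h := hkh
    have e3 : (h * x)⁻¹ * x = k⁻¹ := by rw [← e2]; group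
    rw [e3]
    exact H.inv_mem hk

/-- The index in `H` of `H ⊓ x H x⁻¹` is the length of the orbit of the coset `x H`. -/
theorem index_inf_conj {G : Type*} [Group G] (H : Subgroup G) (x : G) :
    ((H ⊓ H.map (MulAut.conj x).toMonoidHom).subgroupOf H).index =
      (MulAction.orbit H (QuotientGroup.mk x : G ⧸ H)).ncard := by
  rw [← stabilizer_mk_eq_inf_conj, MulAction.index_stabilizer]

/-- The subgroups `H ⊓ x H x⁻¹` for `x` in one double coset of `H` are conjugate in `H`. -/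
theorem coatom_inf_conj_of_dc {G : Type*} [Group G] (H : Subgroup G) (y h h' : G) (hh : h ∈ H)
    (hh' : h' ∈ H) (hy : IsCoatom ((H ⊓ H.map (MulAut.conj y).toMonoidHom).subgroupOf H)) :
    IsCoatom ((H ⊓ H.map (MulAut.conj (h * y * h')).toMonoidHom).subgroupOf H) := by
  have key : (H ⊓ H.map (MulAut.conj (h * y * h')).toMonoidHom).subgroupOf H =
      MulEquiv.mapSubgroup (MulAut.conj (⟨h, hh⟩ : H))
        ((H ⊓ H.map (MulAut.conj y).toMonoidHom).subgroupOf H) := by
    ext ⟨z, hz⟩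
    constructor
    · intro hmem
      rw [Subgroup.mem_subgroupOf, Subgroup.mem_inf] at hmem
      obtain ⟨_, k, hk, hkz⟩ := hmem
      have e2 : h * y * h' * k * (h * y * h')⁻¹ = z := hkz
      refine ⟨⟨h⁻¹ * z * h, H.mul_mem (H.mul_mem (H.inv_mem hh) hz) hh⟩, ?_, ?_⟩
      · show (⟨h⁻¹ * z * h, _⟩ : H) ∈ (H ⊓ H.map (MulAut.conj y).toMonoidHom).subgroupOf H
        rw [Subgroup.mem_subgroupOf, Subgroup.mem_inf]
        refine ⟨H.mul_mem (H.mul_mem (H.inv_mem hh) hz) hh, h' * k * h'⁻¹,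
          H.mul_mem (H.mul_mem hh' hk) (H.inv_mem hh'), ?_⟩
        show y * (h' * k * h'⁻¹) * y⁻¹ = h⁻¹ * z * h
        rw [← e2]; group
      · apply Subtype.ext
        show h * (h⁻¹ * z * h) * h⁻¹ = z
        group
    · rintro ⟨⟨w, hw⟩, hmem, hwz⟩
      have hmem' : (⟨w, hw⟩ : H) ∈ (H ⊓ H.map (MulAut.conj y).toMonoidHom).subgroupOf H := hmem
      rw [Subgroup.mem_subgroupOf, Subgroup.mem_inf] at hmem'
      obtain ⟨_, k, hk, hkw⟩ := hmem'
      have e2 : y * k * y⁻¹ = w := hkw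
      have e3 : h * w * h⁻¹ = z := congrArg Subtype.val hwz
      rw [Subgroup.mem_subgroupOf, Subgroup.mem_inf]
      refine ⟨hz, h'⁻¹ * k * h', H.mul_mem (H.mul_mem (H.inv_mem hh') hk) hh', ?_⟩
      show h * y * h' * (h'⁻¹ * k * h') * (h * y * h')⁻¹ = z
      rw [← e3, ← e2]; group
  rw [key]
  exact (OrderIso.isCoatom_iff _ _).mpr hy

/-- Transport of the subgroups `H ⊓ x H x⁻¹` along an isomorphism. -/
theorem coatom_inf_conj_map {G : Type*} {G' : Type*} [Group G] [Group G'] (e : G ≃* G')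
    (H : Subgroup G) (x' : G')
    (hx : IsCoatom ((H ⊓ H.map (MulAut.conj (e.symm x')).toMonoidHom).subgroupOf H)) :
    IsCoatom ((H.map e.toMonoidHom ⊓
      (H.map e.toMonoidHom).map (MulAut.conj x').toMonoidHom).subgroupOf (H.map e.toMonoidHom)) := by
  have key : (H.map e.toMonoidHom ⊓
      (H.map e.toMonoidHom).map (MulAut.conj x').toMonoidHom).subgroupOf (H.map e.toMonoidHom) =
      MulEquiv.mapSubgroup (e.subgroupMap H)
        ((H ⊓ H.map (MulAut.conj (e.symm x')).toMonoidHom).subgroupOf H) := by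
    ext ⟨z, hz⟩
    constructor
    · intro hmem
      rw [Subgroup.mem_subgroupOf, Subgroup.mem_inf] at hmem
      obtain ⟨_, k', hk', hkz⟩ := hmem
      obtain ⟨k, hk, rfl⟩ := hk'
      obtain ⟨w, hw, rfl⟩ := hz
      have e2 : x' * e k * x'⁻¹ = e w := hkz
      refine ⟨⟨w, hw⟩, ?_, rfl⟩
      show (⟨w, hw⟩ : H) ∈ (H ⊓ H.map (MulAut.conj (e.symm x')).toMonoidHom).subgroupOf H
      rw [Subgroup.mem_subgroupOf, Subgroup.mem_inf]
      refine ⟨hw, k, hk, ?_⟩
      show e.symm x' * k * (e.symm x')⁻¹ = w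
      apply e.injective
      rw [map_mul, map_mul, map_inv, e.apply_symm_apply]
      exact e2
    · rintro ⟨⟨w, hw⟩, hmem, hwz⟩
      have hmem' : (⟨w, hw⟩ : H) ∈ (H ⊓ H.map (MulAut.conj (e.symm x')).toMonoidHom).subgroupOf H := hmem
      rw [Subgroup.mem_subgroupOf, Subgroup.mem_inf] at hmem'
      obtain ⟨_, k, hk, hkw⟩ := hmem'
      have e2 : e.symm x' * k * (e.symm x')⁻¹ = w := hkw
      have e3 : e w = z := congrArg Subtype.val hwz
      rw [Subgroup.mem_subgroupOf, Subgroup.mem_inf]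
      refine ⟨hz, e k, ⟨k, hk, rfl⟩, ?_⟩
      show x' * e k * x'⁻¹ = z
      rw [← e3, ← e2, map_mul, map_mul, map_inv, e.apply_symm_apply]
  rw [key]
  exact (OrderIso.isCoatom_iff _ _).mpr hx

/-- A subgroup contained in another one of the same nonzero index is equal to it. -/
theorem eq_of_le_of_index_eq {G : Type*} [Group G] (A B : Subgroup G) (hle : A ≤ B)
    (hidx : A.index = B.index) (h0 : B.index ≠ 0) : A = B := by
  apply le_antisymm hle
  have h1 := Subgroup.relIndex_mul_index hle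
  rw [hidx] at h1
  have h2 : A.relIndex B = 1 := by
    have : A.relIndex B * B.index = 1 * B.index := by rw [h1, one_mul]
    exact Nat.eq_of_mul_eq_mul_right (Nat.pos_of_ne_zero h0) this
  exact Subgroup.relIndex_eq_one.mp h2

/-- A maximal proper subgroup is a coatom. -/
theorem isCoatom_of_maximal {G : Type*} [Group G] (H : Subgroup G) (hne : H ≠ ⊤)
    (hmax : ∀ L : Subgroup G, H ≤ L → L = H ∨ L = ⊤) : IsCoatom H := by
  refine ⟨hne, fun L hL => ?_⟩
  rcases hmax L hL.le with h | h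
  · exact absurd h (ne_of_gt hL)
  · exact h

end Cfsg.Agent.Helper28
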