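import Mathlib
import Cfsg.Agent.Helper9.OrdTools

/-!
# CALL S0978, piece LOC5: the 5-local structure of a simple group of order 5040 with
self-centralizing Sylow 7-subgroups
-/

set_option autoImplicit false
set_option linter.style.haveILetI false
set_option maxHeartbeats 1000000
open Cfsg
open scoped ComplexConjugate

universe u

namespace Cfsg.Agent.Helper28

theorem o5040loc_relIndex {G : Type u} [Group G] [Finite G] (H : Subgroup G) {e : ℕ}
    (h : Nat.card (Subgroup.normalizer (H : Set G)) =
      e * Nat.card (Subgroup.centralizer (H : Set G))) :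
    (Subgroup.centralizer (H : Set G)).relIndex (Subgroup.normalizer (H : Set G)) = e := by
  have hle : Subgroup.centralizer (H : Set G) ≤ Subgroup.normalizer (H : Set G) :=
    Subgroup.centralizer_le_normalizer _
  have h1 := Subgroup.card_mul_index
    ((Subgroup.centralizer (H : Set G)).subgroupOf (Subgroup.normalizer (H : Set G)))
  rw [Nat.card_congr (Subgroup.subgroupOfEquivOfLe hle).toEquiv, h] at h1
  have hpos : 0 < Nat.card (Subgroup.centralizer (H : Set G)) := Nat.card_pos
  have h2 : ((Subgroup.centralizer (H : Set G)).subgroupOf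
      (Subgroup.normalizer (H : Set G))).index = e := by
    rw [mul_comm e] at h1
    exact Nat.eq_of_mul_eq_mul_left hpos h1
  exact h2

/-- PIECE LOC5. -/
theorem o5040_five_local {G : Type u} [Group G] [Finite G] [IsSimpleGroup G]
    (hG : Nat.card G = 5040)
    (hC7 : ∀ P : Sylow 7 G, Nat.card (Subgroup.centralizer ((P : Subgroup G) : Set G)) = 7)
    (Q : Sylow 5 G) :
    ((Subgroup.centralizer ((Q : Subgroup G) : Set G)).relIndex
        (Subgroup.normalizer ((Q : Subgroup G) : Set G)) = 2 ∨
      (Subgroup.centralizer ((Q : Subgroup G) : Set G)).relIndex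
        (Subgroup.normalizer ((Q : Subgroup G) : Set G)) = 4) ∧
    ∃ c : G, c ∈ Subgroup.centralizer ((Q : Subgroup G) : Set G) ∧
      (orderOf c = 2 ∨ orderOf c = 3) := by
  haveI : Fact (Nat.Prime 5) := ⟨by norm_num⟩
  haveI : Fact (Nat.Prime 7) := ⟨by norm_num⟩
  haveI : Fact (Nat.Prime 2) := ⟨by norm_num⟩
  haveI : Fact (Nat.Prime 3) := ⟨by norm_num⟩
  have hQ : Nat.card (Q : Subgroup G) = 5 := by
    have h := Helper9.OrdTools.sylow_card (p := 5) 1 1008 (by rw [hG]; norm_num) (by norm_num) Q
    simpa using h
  have hS7 : ∀ P : Sylow 7 G, Nat.card (P : Subgroup G) = 7 := by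
    intro P
    have h := Helper9.OrdTools.sylow_card (p := 7) 1 720 (by rw [hG]; norm_num) (by norm_num) P
    simpa using h
  obtain ⟨e, he4, he1, hNC, h5C⟩ :=
    Helper9.OrdTools.normalizer_centralizer_prime Q hQ (by rw [hG]; norm_num)
  obtain ⟨-, hmod, -, hnum⟩ :=
    Helper9.OrdTools.sylow_num Q (by rw [hQ]; norm_num) (by rw [hQ, hG]; norm_num)
  have he : e = 2 ∨ e = 4 := by
    have hle : e ≤ 4 := Nat.le_of_dvd (by norm_num) he4
    interval_cases e
    · left; rfl
    · exact absurd he4 (by norm_num)
    · right; rfl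
  have hrel := o5040loc_relIndex (Q : Subgroup G) hNC
  refine ⟨?_, ?_⟩
  · rcases he with h | h
    · left; rw [hrel, h]
    · right; rw [hrel, h]
  · have hNdvd : Nat.card (Subgroup.centralizer ((Q : Subgroup G) : Set G)) ∣ 5040 :=
      hG ▸ Subgroup.card_subgroup_dvd_card _
    have h23 : 2 ∣ Nat.card (Subgroup.centralizer ((Q : Subgroup G) : Set G)) ∨
        3 ∣ Nat.card (Subgroup.centralizer ((Q : Subgroup G) : Set G)) := by
      by_contra hcon
      push Not at hcon
      obtain ⟨h2, h3⟩ := hcon
      have hc2 : Nat.Coprime (Nat.card (Subgroup.centralizer ((Q : Subgroup G) : Set G))) 2 :=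
        ((Nat.Prime.coprime_iff_not_dvd Nat.prime_two).mpr h2).symm
      have hc3 : Nat.Coprime (Nat.card (Subgroup.centralizer ((Q : Subgroup G) : Set G))) 3 :=
        ((Nat.Prime.coprime_iff_not_dvd Nat.prime_three).mpr h3).symm
      have hcop : Nat.Coprime (Nat.card (Subgroup.centralizer ((Q : Subgroup G) : Set G))) 144 := by
        have h144 : (144 : ℕ) = 2 ^ 4 * 3 ^ 2 := by norm_num
        rw [h144]
        exact Nat.Coprime.mul_right (Nat.Coprime.pow_right 4 hc2) (Nat.Coprime.pow_right 2 hc3)
      have h35 : Nat.card (Subgroup.centralizer ((Q : Subgroup G) : Set G)) ∣ 35 := by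
        have h5040 : (5040 : ℕ) = 144 * 35 := by norm_num
        rw [h5040] at hNdvd
        exact hcop.dvd_of_dvd_mul_left hNdvd
      obtain ⟨t, ht⟩ := h5C
      rw [ht] at h35
      have ht7 : t ∣ 7 := by
        have h35' : (35 : ℕ) = 5 * 7 := by norm_num
        rw [h35'] at h35
        exact Nat.dvd_of_mul_dvd_mul_left (by norm_num) h35
      rcases (Nat.dvd_prime (by norm_num : Nat.Prime 7)).mp ht7 with h | h
      · -- |C(Q)| = 5
        rw [h, mul_one] at ht
        rw [ht] at hNC
        rcases he with he | he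
        · rw [he] at hNC
          rw [hNC, hG] at hnum
          omega
        · rw [he] at hNC
          rw [hNC, hG] at hnum
          omega
      · -- |C(Q)| = 35: an element of order 7 centralizing Q
        have h7 : 7 ∣ Nat.card (Subgroup.centralizer ((Q : Subgroup G) : Set G)) := by
          rw [ht, h]
          norm_num
        obtain ⟨z, hz⟩ := exists_prime_orderOf_dvd_card' 7 h7
        have hz' : orderOf (z : G) = 7 := by rw [Subgroup.orderOf_coe]; exact hz
        obtain ⟨P', hP'⟩ := Helper9.OrdTools.exists_sylow_of_orderOf hS7 hz'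
        have hle : (Q : Subgroup G) ≤ Subgroup.centralizer ((P' : Subgroup G) : Set G) := by
          rw [← Helper9.OrdTools.centralizer_singleton_eq hP']
          intro x hx
          rw [Subgroup.mem_centralizer_iff]
          intro w hw
          rw [Set.mem_singleton_iff] at hw
          subst hw
          have := Subgroup.mem_centralizer_iff.mp z.2 x hx
          exact this.symm
        have hdvd := Subgroup.card_dvd_of_le hle
        rw [hQ, hC7 P'] at hdvd
        omega
    rcases h23 with h | h
    · obtain ⟨c, hc⟩ := exists_prime_orderOf_dvd_card' 2 h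
      exact ⟨(c : G), c.2, Or.inl (by rw [Subgroup.orderOf_coe]; exact hc)⟩
    · obtain ⟨c, hc⟩ := exists_prime_orderOf_dvd_card' 3 h
      exact ⟨(c : G), c.2, Or.inr (by rw [Subgroup.orderOf_coe]; exact hc)⟩

end Cfsg.Agent.Helper28
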