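import Mathlib
import Cfsg.Agent.Helper95.OSylDefs
set_option autoImplicit false

/-!
# Piece O2C of CALL S4629: the order of `O_2(F)` for the form `x² + y²`, `|F|` odd

`O_2(F)` is in bijection with two copies of the circle `a² + c² = 1`, and the circle is parametrised rationally
by `t ↦ ((1 - t²)/(1 + t²), 2t/(1 + t²))`, `1 + t² ≠ 0`, together with the point `(-1, 0)`.
-/

namespace Cfsg.Agent.Helper28
open Matrix Cfsg
open Cfsg.Agent.Helper95.OSyl
universe u
variable {F : Type u} [Field F]

theorem osylo2_entries (M : Matrix (Fin 2) (Fin 2) F) (hM : Mᵀ * M = 1) :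
    M 0 0 * M 0 0 + M 1 0 * M 1 0 = 1 ∧ M 0 0 * M 0 1 + M 1 0 * M 1 1 = 0 ∧
      M 0 1 * M 0 1 + M 1 1 * M 1 1 = 1 := by
  have h00 := congrFun (congrFun hM 0) 0
  have h01 := congrFun (congrFun hM 0) 1
  have h11 := congrFun (congrFun hM 1) 1
  simp [Matrix.mul_apply, Fin.sum_univ_two] at h00 h01 h11
  exact ⟨h00, h01, h11⟩

theorem osylo2_det (M : Matrix (Fin 2) (Fin 2) F) (hM : Mᵀ * M = 1) : M.det = 1 ∨ M.det = -1 := by
  obtain ⟨h00, h01, h11⟩ := osylo2_entries M hM
  have h : (M.det - 1) * (M.det + 1) = 0 := by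
    rw [Matrix.det_fin_two]
    linear_combination (M 0 1 * M 0 1 + M 1 1 * M 1 1) * h00 + h11 -
      (M 0 0 * M 0 1 + M 1 0 * M 1 1) * h01
  rcases mul_eq_zero.mp h with h | h
  · left; linear_combination h
  · right; linear_combination h

theorem osylo2_col (M : Matrix (Fin 2) (Fin 2) F) (hM : Mᵀ * M = 1) :
    M 0 1 = - M.det * M 1 0 ∧ M 1 1 = M.det * M 0 0 := by
  obtain ⟨h00, h01, h11⟩ := osylo2_entries M hM
  rw [Matrix.det_fin_two]
  constructor
  · linear_combination M 0 0 * h01 - M 0 1 * h00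
  · linear_combination M 1 0 * h01 - M 1 1 * h00

/-- the unit circle `a² + c² = 1` -/
abbrev osylCirc (F : Type u) [Field F] : Type u := {p : F × F // p.1 ^ 2 + p.2 ^ 2 = 1}

/-- first column and determinant -/
noncomputable def osylo2Map [DecidableEq F] (g : ↥(O2 F)) : osylCirc F × Bool :=
  (⟨(((g : GL (Fin 2) F) : Matrix (Fin 2) (Fin 2) F) 0 0,
      ((g : GL (Fin 2) F) : Matrix (Fin 2) (Fin 2) F) 1 0), by
      have h := (osylo2_entries _ g.2).1
      show _ ^ 2 + _ ^ 2 = (1 : F)
      linear_combination h⟩,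
    decide (((g : GL (Fin 2) F) : Matrix (Fin 2) (Fin 2) F).det = 1))

theorem osylo2Map_injective [DecidableEq F] : Function.Injective (osylo2Map (F := F)) := by
  intro g g' h
  have h1 := congrArg (fun x => x.1.1.1) h
  have h2 := congrArg (fun x => x.1.1.2) h
  have h3 := congrArg (fun x => x.2) h
  simp only [osylo2Map] at h1 h2 h3
  have hdet : ((g : GL (Fin 2) F) : Matrix (Fin 2) (Fin 2) F).det =
      ((g' : GL (Fin 2) F) : Matrix (Fin 2) (Fin 2) F).det := by
    rcases osylo2_det _ g.2 with hd | hd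
    · rw [hd]
      rw [hd] at h3
      simp only [decide_true] at h3
      exact (of_decide_eq_true h3.symm).symm
    · rcases osylo2_det _ g'.2 with hd' | hd'
      · rw [hd'] at h3 ⊢
        simp only [decide_true] at h3
        exact of_decide_eq_true h3
      · rw [hd, hd']
  obtain ⟨c1, c2⟩ := osylo2_col _ g.2
  obtain ⟨c1', c2'⟩ := osylo2_col _ g'.2
  apply Subtype.ext
  apply Units.ext
  ext i j
  fin_cases i <;> fin_cases j
  · exact h1
  · show ((g : GL (Fin 2) F) : Matrix (Fin 2) (Fin 2) F) 0 1 = ((g' : GL (Fin 2) F) : Matrix (Fin 2) (Fin 2) F) 0 1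
    rw [c1, c1', hdet, h2]
  · exact h2
  · show ((g : GL (Fin 2) F) : Matrix (Fin 2) (Fin 2) F) 1 1 = ((g' : GL (Fin 2) F) : Matrix (Fin 2) (Fin 2) F) 1 1
    rw [c2, c2', hdet, h1]

theorem osylo2Map_surjective [DecidableEq F] (h2 : (2 : F) ≠ 0) :
    Function.Surjective (osylo2Map (F := F)) := by
  rintro ⟨⟨⟨a, c⟩, hp⟩, β⟩
  have hp' : a ^ 2 + c ^ 2 = 1 := hp
  cases β
  · have hdet : (!![a, c; c, -a] : Matrix (Fin 2) (Fin 2) F).det = -1 := by
      rw [Matrix.det_fin_two_of]
      linear_combination -hp'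
    have hmem : Matrix.GeneralLinearGroup.mkOfDetNeZero (!![a, c; c, -a] : Matrix (Fin 2) (Fin 2) F)
        (by rw [hdet]; exact neg_ne_zero.mpr one_ne_zero) ∈ O2 F := by
      rw [mem_O2]
      show (!![a, c; c, -a] : Matrix (Fin 2) (Fin 2) F)ᵀ * !![a, c; c, -a] = 1
      ext i j
      fin_cases i <;> fin_cases j <;> simp [Matrix.mul_apply, Fin.sum_univ_two] <;>
        first | linear_combination hp' | ring
    refine ⟨⟨_, hmem⟩, ?_⟩
    unfold osylo2Map
    refine Prod.ext (Subtype.ext (Prod.ext rfl rfl)) ?_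
    show decide ((!![a, c; c, -a] : Matrix (Fin 2) (Fin 2) F).det = 1) = false
    rw [hdet]
    apply decide_eq_false
    intro h
    apply h2
    linear_combination -h
  · have hdet : (!![a, -c; c, a] : Matrix (Fin 2) (Fin 2) F).det = 1 := by
      rw [Matrix.det_fin_two_of]
      linear_combination hp'
    have hmem : Matrix.GeneralLinearGroup.mkOfDetNeZero (!![a, -c; c, a] : Matrix (Fin 2) (Fin 2) F)
        (by rw [hdet]; exact one_ne_zero) ∈ O2 F := by
      rw [mem_O2]
      show (!![a, -c; c, a] : Matrix (Fin 2) (Fin 2) F)ᵀ * !![a, -c; c, a] = 1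
      ext i j
      fin_cases i <;> fin_cases j <;> simp [Matrix.mul_apply, Fin.sum_univ_two] <;>
        first | linear_combination hp' | ring
    refine ⟨⟨_, hmem⟩, ?_⟩
    unfold osylo2Map
    refine Prod.ext (Subtype.ext (Prod.ext rfl rfl)) ?_
    show decide ((!![a, -c; c, a] : Matrix (Fin 2) (Fin 2) F).det = 1) = true
    rw [hdet]
    exact decide_eq_true rfl

/-- the rational parametrisation of the circle -/
noncomputable def osylCircEquiv [DecidableEq F] (h2 : (2 : F) ≠ 0) :
    osylCirc F ≃ Option {t : F // 1 + t ^ 2 ≠ 0} where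
  toFun p := if h : p.1.1 = -1 then none else some ⟨p.1.2 / (1 + p.1.1), by
    have h1 : 1 + p.1.1 ≠ 0 := fun h' => h (by linear_combination h')
    have h3 : 1 + (p.1.2 / (1 + p.1.1)) ^ 2 = 2 / (1 + p.1.1) := by
      field_simp
      linear_combination p.2
    rw [h3]
    exact div_ne_zero h2 h1⟩
  invFun o := match o with
    | none => ⟨(-1, 0), by norm_num⟩
    | some t => ⟨((1 - t.1 ^ 2) / (1 + t.1 ^ 2), 2 * t.1 / (1 + t.1 ^ 2)), by
        have := t.2
        show ((1 - t.1 ^ 2) / (1 + t.1 ^ 2)) ^ 2 + (2 * t.1 / (1 + t.1 ^ 2)) ^ 2 = 1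
        field_simp
        ring⟩
  left_inv p := by
    obtain ⟨⟨a, b⟩, hp⟩ := p
    have hp' : a ^ 2 + b ^ 2 = 1 := hp
    by_cases h : a = -1
    · simp only [dif_pos h]
      apply Subtype.ext
      have hb : b = 0 := by
        have : b ^ 2 = 0 := by rw [h] at hp'; linear_combination hp'
        exact pow_eq_zero_iff two_ne_zero |>.mp this
      exact Prod.ext h.symm hb.symm
    · simp only [dif_neg h]
      have h1 : 1 + a ≠ 0 := fun h' => h (by linear_combination h')
      have h3 : 1 + (b / (1 + a)) ^ 2 = 2 / (1 + a) := by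
        field_simp
        linear_combination hp'
      apply Subtype.ext
      show ((1 - (b / (1 + a)) ^ 2) / (1 + (b / (1 + a)) ^ 2), 2 * (b / (1 + a)) / (1 + (b / (1 + a)) ^ 2)) = (a, b)
      rw [h3]
      refine Prod.ext ?_ ?_
      · show (1 - (b / (1 + a)) ^ 2) / (2 / (1 + a)) = a
        field_simp
        linear_combination -hp'
      · show 2 * (b / (1 + a)) / (2 / (1 + a)) = b
        field_simp
  right_inv o := by
    rcases o with _ | ⟨t, ht⟩
    · simp
    · have h1 : 1 + (1 - t ^ 2) / (1 + t ^ 2) = 2 / (1 + t ^ 2) := by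
        field_simp
        ring
      have h : ¬ ((1 - t ^ 2) / (1 + t ^ 2) = -1) := by
        intro h'
        have h4 : (2 : F) / (1 + t ^ 2) = 0 := by rw [← h1, h']; ring
        exact div_ne_zero h2 ht h4
      simp only [dif_neg h]
      congr 1
      apply Subtype.ext
      show 2 * t / (1 + t ^ 2) / (1 + (1 - t ^ 2) / (1 + t ^ 2)) = t
      rw [h1]
      field_simp

theorem osylo2_two_ne_zero [Fintype F] (hF : Odd (Fintype.card F)) : (2 : F) ≠ 0 := by
  intro h2
  have : CharP F 2 := CharTwo.of_one_ne_zero_of_two_eq_zero one_ne_zero h2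
  have hc : ringChar F = 2 := ringChar.eq F 2
  have := FiniteField.even_card_of_char_two hc
  rcases hF with ⟨m, hm⟩
  omega

theorem osylo2_card_roots_sq [Fintype F] [DecidableEq F] (h2 : (2 : F) ≠ 0) (h : IsSquare (-1 : F)) :
    Fintype.card {t : F // 1 + t ^ 2 = 0} = 2 := by
  obtain ⟨i, hi⟩ := h
  have hi0 : i ≠ 0 := by
    rintro rfl
    simp at hi
  have hne : i ≠ -i := by
    intro h'
    have : 2 * i = 0 := by linear_combination h'
    rcases mul_eq_zero.mp this with h3 | h3
    · exact h2 h3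
    · exact hi0 h3
  rw [Fintype.card_subtype]
  have : (Finset.univ.filter fun t : F => 1 + t ^ 2 = 0) = {i, -i} := by
    ext t
    simp only [Finset.mem_filter, Finset.mem_univ, true_and, Finset.mem_insert, Finset.mem_singleton]
    constructor
    · intro ht
      have : (t - i) * (t + i) = 0 := by linear_combination ht + hi
      rcases mul_eq_zero.mp this with h3 | h3
      · left; linear_combination h3
      · right; linear_combination h3
    · rintro (rfl | rfl) <;> linear_combination -hi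
  rw [this, Finset.card_pair hne]

theorem osylo2_card_roots_nsq [Fintype F] [DecidableEq F] (h : ¬ IsSquare (-1 : F)) :
    Fintype.card {t : F // 1 + t ^ 2 = 0} = 0 := by
  rw [Fintype.card_eq_zero_iff]
  refine ⟨fun t => h ⟨t.1, ?_⟩⟩
  linear_combination -t.2

theorem osyl_o2_card [Fintype F] (hF : Odd (Fintype.card F)) :
    (IsSquare (-1 : F) → Nat.card ↥(O2 F) = 2 * (Fintype.card F - 1)) ∧
      (¬ IsSquare (-1 : F) → Nat.card ↥(O2 F) = 2 * (Fintype.card F + 1)) := by
  classical
  have h2 := osylo2_two_ne_zero hF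
  have hcard : Nat.card ↥(O2 F) = 2 * (Fintype.card {t : F // 1 + t ^ 2 ≠ 0} + 1) := by
    rw [Nat.card_congr (Equiv.ofBijective _ ⟨osylo2Map_injective (F := F), osylo2Map_surjective h2⟩),
      Nat.card_prod, Nat.card_congr (osylCircEquiv h2), Nat.card_eq_fintype_card, Fintype.card_option,
      Nat.card_eq_fintype_card, Fintype.card_bool, mul_comm]
  have hcompl : Fintype.card {t : F // 1 + t ^ 2 ≠ 0} =
      Fintype.card F - Fintype.card {t : F // 1 + t ^ 2 = 0} := Fintype.card_subtype_compl _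
  have hq : 1 < Fintype.card F := Fintype.one_lt_card
  constructor
  · intro h
    rw [hcard, hcompl, osylo2_card_roots_sq h2 h]
    congr 1
    omega
  · intro h
    rw [hcard, hcompl, osylo2_card_roots_nsq h]
    rfl

end Cfsg.Agent.Helper28
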