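import Mathlib
import Cfsg.Agent.Helper95.OSylDefs
set_option autoImplicit false

/-!
# Piece SW of CALL S4629: block permutation matrices lie in `Ω`

A transposition of two planes is the product of two reflections in vectors of norm `2`; in the abelianisation of
the isometry group these two reflections have the same image.
-/

namespace Cfsg.Agent.Helper28
open Matrix Cfsg
open Cfsg.Agent.Helper95.OSyl
universe u
variable {F : Type u} [Field F] {k r : ℕ}

theorem osylsw_polar (c : Fin r → F) (u x : MI k r → F) :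
    QuadraticMap.polar ⇑(mQ k c) u x = 2 * ∑ y, mW k c y * (u y * x y) := by
  unfold QuadraticMap.polar
  rw [mQ_apply, mQ_apply, mQ_apply, Finset.mul_sum, ← Finset.sum_sub_distrib, ← Finset.sum_sub_distrib]
  refine Finset.sum_congr rfl fun y _ => ?_
  simp only [Pi.add_apply]
  ring

theorem osylsw_polar_single (c : Fin r → F) (a b : MI k r) (ha : mW k c a = 1) (hb : mW k c b = 1)
    (x : MI k r → F) :
    QuadraticMap.polar ⇑(mQ k c) (Pi.single a 1 - Pi.single b 1) x = 2 * (x a - x b) := by
  rw [osylsw_polar]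
  congr 1
  have h1 : ∀ y, mW k c y * ((Pi.single a (1 : F) - Pi.single b (1 : F) : MI k r → F) y * x y) =
      (if y = a then mW k c y * x y else 0) - (if y = b then mW k c y * x y else 0) := by
    intro y
    simp only [Pi.sub_apply, Pi.single_apply]
    split_ifs <;> ring
  rw [Finset.sum_congr rfl fun y _ => h1 y, Finset.sum_sub_distrib, Finset.sum_ite_eq',
    Finset.sum_ite_eq']
  simp [ha, hb]

theorem osylsw_q_single (c : Fin r → F) (a b : MI k r) (hab : a ≠ b) (ha : mW k c a = 1)
    (hb : mW k c b = 1) : mQ k c (Pi.single a 1 - Pi.single b 1) = 2 := by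
  rw [mQ_apply]
  have h1 : ∀ y, mW k c y * ((Pi.single a (1 : F) - Pi.single b (1 : F) : MI k r → F) y *
      (Pi.single a (1 : F) - Pi.single b (1 : F) : MI k r → F) y) =
      (if y = a then mW k c y else 0) + (if y = b then mW k c y else 0) := by
    intro y
    simp only [Pi.sub_apply, Pi.single_apply]
    split_ifs with h3 h4
    · exact absurd (h3.symm.trans h4) hab
    · ring
    · ring
    · ring
  rw [Finset.sum_congr rfl fun y _ => h1 y, Finset.sum_add_distrib, Finset.sum_ite_eq',
    Finset.sum_ite_eq']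
  simp only [Finset.mem_univ, if_true, ha, hb]
  norm_num

/-- the reflection in `e_a - e_b` swaps the coordinates `a` and `b` -/
theorem osylsw_mv_refl (h2 : (2 : F) ≠ 0) (c : Fin r → F) (a b : MI k r) (hab : a ≠ b)
    (ha : mW k c a = 1) (hb : mW k c b = 1)
    (hv : mQ k c (Pi.single a 1 - Pi.single b 1) ≠ 0) (x : MI k r → F) :
    Helper45.mv ⇑(mQ k c) (Helper45.reflO (mQ k c) (Pi.single a 1 - Pi.single b 1) hv) x =
      x ∘ Equiv.swap a b := by
  rw [Helper45.mv_reflO, osylsw_q_single c a b hab ha hb, osylsw_polar_single c a b ha hb,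
    inv_mul_cancel_left₀ h2]
  funext y
  simp only [Pi.sub_apply, Pi.smul_apply, Pi.single_apply, smul_eq_mul, Function.comp_apply,
    Equiv.swap_apply_def]
  by_cases h3 : y = a
  · subst h3
    simp only [if_true, if_neg hab]
    ring
  · by_cases h4 : y = b
    · subst h4
      simp only [if_true, if_neg h3]
      ring
    · simp only [if_neg h3, if_neg h4]
      ring

theorem osylsw_mv_psi (c : Fin r → F) (σ : Equiv.Perm (Fin k)) (x : MI k r → F) :
    Helper45.mv ⇑(mQ k c) (Psi k c σ) x =
      Sum.elim (fun p : Fin 2 × Fin k => x (Sum.inl (p.1, σ⁻¹ p.2))) (fun l => x (Sum.inr l)) := by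
  show (((Psi k c σ : ↥(isometryGroup F ⇑(mQ k c))) : GL (MI k r) F) : Matrix (MI k r) (MI k r) F) *ᵥ x = _
  rw [Psi_coe]
  have hx : x = Sum.elim (x ∘ Sum.inl) (x ∘ Sum.inr) := by
    funext y
    rcases y with y | y <;> rfl
  conv_lhs => rw [hx]
  rw [Matrix.fromBlocks_mulVec, PEquiv.toMatrix_toPEquiv_mulVec]
  funext y
  rcases y with ⟨a, l⟩ | l
  · simp [pmE]
  · simp

theorem osylsw_swap (h2 : (2 : F) ≠ 0) (c : Fin r → F) (i j : Fin k) (hij : i ≠ j) :
    Psi k c (Equiv.swap i j) ∈ Omega F ⇑(mQ k c) := by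
  have hne0 : (Sum.inl ((0 : Fin 2), i) : MI k r) ≠ Sum.inl (0, j) := by
    intro h
    exact hij (by simpa using h)
  have hne1 : (Sum.inl ((1 : Fin 2), i) : MI k r) ≠ Sum.inl (1, j) := by
    intro h
    exact hij (by simpa using h)
  have hq0 := osylsw_q_single c (Sum.inl ((0 : Fin 2), i) : MI k r) (Sum.inl (0, j)) hne0 rfl rfl
  have hq1 := osylsw_q_single c (Sum.inl ((1 : Fin 2), i) : MI k r) (Sum.inl (1, j)) hne1 rfl rfl
  have hv0 : mQ k c (Pi.single (Sum.inl ((0 : Fin 2), i) : MI k r) 1 - Pi.single (Sum.inl (0, j)) 1) ≠ 0 := by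
    rw [hq0]; exact h2
  have hv1 : mQ k c (Pi.single (Sum.inl ((1 : Fin 2), i) : MI k r) 1 - Pi.single (Sum.inl (1, j)) 1) ≠ 0 := by
    rw [hq1]; exact h2
  have hprod : Psi k c (Equiv.swap i j) =
      Helper45.reflO (mQ k c) _ hv0 * Helper45.reflO (mQ k c) _ hv1 := by
    apply Helper45.ext_mv
    intro x
    rw [Helper45.mv_mul, osylsw_mv_refl h2 c _ _ hne1 rfl rfl, osylsw_mv_refl h2 c _ _ hne0 rfl rfl,
      osylsw_mv_psi]
    funext y
    rcases y with ⟨a, l⟩ | l
    · simp only [Sum.elim_inl, Function.comp_apply, Equiv.swap_inv, Equiv.swap_apply_def,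
        Sum.inl.injEq, Prod.mk.injEq]
      fin_cases a
      · by_cases h3 : l = i
        · subst h3; simp [hij]
        · by_cases h4 : l = j
          · subst h4; simp [hij, h3]
          · simp [h3, h4]
      · by_cases h3 : l = i
        · subst h3; simp [hij]
        · by_cases h4 : l = j
          · subst h4; simp [hij, h3]
          · simp [h3, h4]
    · simp [Equiv.swap_apply_def]
  rw [hprod]
  have heq := Helper45.hom_reflO_eq (mQ k c) (Abelianization.of (G := ↥(isometryGroup F ⇑(mQ k c)))) h2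
    _ _ hv0 hv1 1 (by rw [hq0, hq1]; ring)
  have hker : Abelianization.of (Helper45.reflO (mQ k c) _ hv0 * Helper45.reflO (mQ k c) _ hv1) = 1 := by
    rw [map_mul, ← heq, ← map_mul, Helper45.reflO_mul_self, map_one]
  have h5 := (QuotientGroup.eq_one_iff (N := commutator ↥(isometryGroup F ⇑(mQ k c))) _).mp hker
  exact h5

theorem osyl_psi_mem_omega [Fintype F] (h2 : (2 : F) ≠ 0) (c : Fin r → F)
    (hQ : (QuadraticMap.polarBilin (mQ k c)).Nondegenerate) (σ : Equiv.Perm (Fin k)) :
    Psi k c σ ∈ Omega F ⇑(mQ k c) := by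
  have hle : (⊤ : Subgroup (Equiv.Perm (Fin k))) ≤ (Omega F ⇑(mQ k c)).comap (Psi k c) := by
    rw [← Equiv.Perm.closure_isSwap, Subgroup.closure_le]
    rintro τ ⟨i, j, hij, rfl⟩
    exact osylsw_swap h2 c i j hij
  exact hle (Subgroup.mem_top σ)

end Cfsg.Agent.Helper28
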