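import Mathlib
import Cfsg.Agent.Helper28.Ree1159CNT4
import Cfsg.Agent.Helper31.Ree1158
import Cfsg.Agent.Helper29.Ree2357CYCT
set_option autoImplicit false

/-! # CALL S2357, piece M2I: elements of order `i` and `2i` in an abelian group of order `4n` -/

namespace Cfsg.Agent.Helper28

theorem m2i_gcd (i : ℕ) (hi : Odd i) : Nat.gcd (2 * i) (i + 1) = 2 := by
  obtain ⟨k, rfl⟩ := hi
  have h1 : 2 * k + 1 + 1 = 2 * (k + 1) := by ring
  rw [h1, Nat.gcd_mul_left]
  have h2 : Nat.gcd (2 * k + 1) (k + 1) = 1 := by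
    have : 2 * k + 1 = k + (k + 1) := by ring
    rw [this]
    simp
  rw [h2]

/-- PIECE M2I -/
theorem card_orderOf_torus {G : Type*} [Group G] [Finite G] (M : Subgroup G)
    (hMcomm : ∀ x ∈ M, ∀ y ∈ M, x * y = y * x) {n : ℕ} (hn : Odd n) (hM : Nat.card M = 4 * n)
    (h2 : ∀ (g : G) (k : ℕ), g ^ 2 ^ k = 1 → g * g = 1)
    (hcnt : ∀ d : ℕ, Odd d → Nat.card {x : G // x ∈ M ∧ x ^ d = 1} ≤ d)
    {i : ℕ} (hi1 : 1 < i) (hi : i ∣ n) :
    Nat.card {g : G // g ∈ M ∧ orderOf g = i} = Nat.totient i ∧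
      Nat.card {g : G // g ∈ M ∧ orderOf g = 2 * i} = 3 * Nat.totient i := by
  classical
  have hiodd : Odd i := by
    obtain ⟨c, rfl⟩ := hi
    exact (Nat.odd_mul.mp hn).1
  obtain ⟨O, hOM, hOcyc, hOcard⟩ :=
    Cfsg.Agent.Helper31.exists_cyclic_odd_part M hMcomm hn hM hcnt
  -- `O` is the set of solutions of `x ^ n = 1` in `M`
  have hOset : (O : Set G) = {x : G | x ∈ M ∧ x ^ n = 1} := by
    apply Set.eq_of_subset_of_ncard_le
    · intro x hx
      refine ⟨hOM hx, ?_⟩
      have := pow_card_eq_one' (G := O) (x := ⟨x, hx⟩)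
      rw [hOcard] at this
      exact congrArg Subtype.val this
    · have h1 := hcnt n hn
      have h2' : Nat.card {x : G // x ∈ M ∧ x ^ n = 1} =
          Set.ncard {x : G | x ∈ M ∧ x ^ n = 1} := Nat.card_coe_set_eq _
      have h3 : Set.ncard (O : Set G) = n :=
        (Nat.card_coe_set_eq (O : Set G)).symm.trans hOcard
      rw [h3, ← h2']; exact h1
    · exact Set.toFinite _
  have hO : ∀ g : G, g ∈ M → g ^ n = 1 → g ∈ O := by
    intro g hg hgn
    have : g ∈ (O : Set G) := by rw [hOset]; exact ⟨hg, hgn⟩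
    exact this
  -- part A
  have hA : Nat.card {g : G // g ∈ M ∧ orderOf g = i} = Nat.totient i := by
    rw [← Cfsg.Agent.Helper29.card_orderOf_eq_totient_of_isCyclic O hOcyc (hOcard ▸ hi)]
    apply Nat.card_congr
    refine Equiv.subtypeEquivRight (fun g => ?_)
    constructor
    · rintro ⟨hg, ho⟩
      refine ⟨hO g hg ?_, ho⟩
      obtain ⟨c, rfl⟩ := hi
      rw [pow_mul, ← ho, pow_orderOf_eq_one, one_pow]
    · rintro ⟨hg, ho⟩
      exact ⟨hOM hg, ho⟩
  refine ⟨hA, ?_⟩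
  -- part B
  obtain ⟨h4, -, -⟩ := card_sq_eq_one_of_four_mul M hMcomm hn hM h2
  have hT : Nat.card {t : G // t ∈ M ∧ t ≠ 1 ∧ t * t = 1} = 3 := by
    have h5 : {g : G | g ∈ M ∧ g * g = 1} = insert 1 {t : G | t ∈ M ∧ t ≠ 1 ∧ t * t = 1} := by
      ext g
      simp only [Set.mem_ofPred_eq, Set.mem_insert_iff]
      constructor
      · rintro ⟨hg, hg2⟩
        by_cases h : g = 1
        · left; exact h
        · right; exact ⟨hg, h, hg2⟩
      · rintro (rfl | ⟨hg, -, hg2⟩)
        · exact ⟨M.one_mem, one_mul 1⟩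
        · exact ⟨hg, hg2⟩
    have h6 : Set.ncard {g : G | g ∈ M ∧ g * g = 1} = 4 :=
      (Nat.card_coe_set_eq {g : G | g ∈ M ∧ g * g = 1}).symm.trans h4
    rw [h5, Set.ncard_insert_of_notMem (by simp) (Set.toFinite _)] at h6
    have h7 : Nat.card {t : G // t ∈ M ∧ t ≠ 1 ∧ t * t = 1} =
        Set.ncard {t : G | t ∈ M ∧ t ≠ 1 ∧ t * t = 1} := Nat.card_coe_set_eq _
    omega
  have hi0 : i ≠ 0 := by omega
  obtain ⟨k, hk⟩ := hiodd
  have hodd : ∀ t : G, t ^ 2 = 1 → t ^ i = t := by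
    intro t ht
    rw [hk, pow_succ, pow_mul, ht, one_pow, one_mul]
  have e : {g : G // g ∈ M ∧ orderOf g = 2 * i} ≃
      {t : G // t ∈ M ∧ t ≠ 1 ∧ t * t = 1} × {v : G // v ∈ M ∧ orderOf v = i} :=
    { toFun := fun g => (⟨g.1 ^ i, M.pow_mem g.2.1 i, by
          intro h
          have h8 := orderOf_dvd_of_pow_eq_one h
          rw [g.2.2] at h8
          have h9 := Nat.le_of_dvd (by omega) h8
          omega, by
          have h8 := pow_orderOf_eq_one g.1
          rw [g.2.2] at h8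
          rw [← pow_add, ← two_mul, h8]⟩,
        ⟨g.1 ^ (i + 1), M.pow_mem g.2.1 _, by
          rw [orderOf_pow' _ (by omega), g.2.2, m2i_gcd i ⟨k, hk⟩,
            Nat.mul_div_cancel_left _ (by norm_num)]⟩)
      invFun := fun p => ⟨p.1.1 * p.2.1, M.mul_mem p.1.2.1 p.2.2.1, by
          have hcomm : Commute p.1.1 p.2.1 := hMcomm _ p.1.2.1 _ p.2.2.1
          have ho2 : orderOf p.1.1 = 2 := by
            have : Fact (Nat.Prime 2) := ⟨Nat.prime_two⟩
            exact orderOf_eq_prime (by rw [pow_two]; exact p.1.2.2.2) p.1.2.2.1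
          have hco : (orderOf p.1.1).Coprime (orderOf p.2.1) := by
            rw [ho2, p.2.2.2]
            exact Nat.coprime_two_left.mpr ⟨k, hk⟩
          rw [hcomm.orderOf_mul_eq_mul_orderOf_of_coprime hco, ho2, p.2.2.2]⟩
      left_inv := fun g => by
        apply Subtype.ext
        change g.1 ^ i * g.1 ^ (i + 1) = g.1
        have h8 := pow_orderOf_eq_one g.1
        rw [g.2.2] at h8
        rw [← pow_add, show i + (i + 1) = 2 * i + 1 by ring, pow_succ, h8, one_mul]
      right_inv := fun p => by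
        have hcomm : Commute p.1.1 p.2.1 := hMcomm _ p.1.2.1 _ p.2.2.1
        have ht2 : p.1.1 ^ 2 = 1 := by rw [pow_two]; exact p.1.2.2.2
        have hvi : p.2.1 ^ i = 1 := by
          have h8 := pow_orderOf_eq_one p.2.1
          rwa [p.2.2.2] at h8
        have hti : p.1.1 ^ i = p.1.1 := hodd _ ht2
        apply Prod.ext
        · apply Subtype.ext
          change (p.1.1 * p.2.1) ^ i = p.1.1
          rw [hcomm.mul_pow, hvi, mul_one, hti]
        · apply Subtype.ext
          change (p.1.1 * p.2.1) ^ (i + 1) = p.2.1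
          rw [hcomm.mul_pow, pow_succ, hti, ← pow_two, ht2, one_mul, pow_succ, hvi, one_mul] }
  rw [Nat.card_congr e, Nat.card_prod, hT, hA]

end Cfsg.Agent.Helper28
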