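import Mathlib
import Cfsg.Agent.Helper28.Ree1159P3
set_option autoImplicit false

/-! # CALL S2357, piece ORD3C: the number of elements of order 3 of `Z₂ × PSL₂(F)`, char 3 -/

namespace Cfsg.Agent.Helper28

/-- a `2 × 2` matrix of square zero has trace and determinant zero -/
theorem o3c_tr_det {F : Type*} [Field F] (N : Matrix (Fin 2) (Fin 2) F) (hN : N * N = 0) :
    N.trace = 0 ∧ N.det = 0 := by
  have hdet : N.det = 0 := by
    have h := congrArg Matrix.det hN
    rw [Matrix.det_mul, Matrix.det_zero] at h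
    exact mul_self_eq_zero.mp h
  refine ⟨?_, hdet⟩
  have hCH : N * N = N.trace • N - N.det • (1 : Matrix (Fin 2) (Fin 2) F) := by
    ext i j
    fin_cases i <;> fin_cases j <;>
      simp [Matrix.mul_apply, Fin.sum_univ_two, Matrix.trace, Matrix.det_fin_two] <;> ring
  rw [hN, hdet, zero_smul, sub_zero] at hCH
  rcases smul_eq_zero.mp hCH.symm with h | h
  · exact h
  · rw [h]; simp

theorem o3c_det {F : Type*} [Field F] (N : Matrix (Fin 2) (Fin 2) F) (hN : N * N = 0) :
    (1 + N).det = 1 := by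
  obtain ⟨ht, hd⟩ := o3c_tr_det N hN
  rw [Matrix.det_fin_two] at hd ⊢
  simp only [Matrix.trace, Fin.sum_univ_two, Matrix.diag_apply] at ht
  simp only [Matrix.add_apply, Matrix.one_apply_eq, Matrix.one_apply_ne, ne_eq,
    Fin.zero_eq_one_iff, Fin.one_eq_zero_iff, OfNat.ofNat_ne_one, not_false_eq_true, zero_add]
  linear_combination ht + hd

theorem o3c_mk_eq {F : Type*} [Field F] (A B : Matrix.SpecialLinearGroup (Fin 2) F) (r : F)
    (hr : r ^ 2 = 1)
    (h : (B : Matrix (Fin 2) (Fin 2) F) = r • (A : Matrix (Fin 2) (Fin 2) F)) :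
    (QuotientGroup.mk A : Matrix.ProjectiveSpecialLinearGroup (Fin 2) F) = QuotientGroup.mk B := by
  rw [QuotientGroup.eq, Matrix.SpecialLinearGroup.mem_center_iff]
  refine ⟨r, by simpa using hr, ?_⟩
  rw [Matrix.SpecialLinearGroup.coe_mul, h, Matrix.mul_smul, ← Matrix.SpecialLinearGroup.coe_mul,
    inv_mul_cancel, Matrix.SpecialLinearGroup.coe_one, Matrix.smul_one_eq_diagonal]
  rfl

theorem o3c_eq_of_mk {F : Type*} [Field F] (A B : Matrix.SpecialLinearGroup (Fin 2) F)
    (h : (QuotientGroup.mk A : Matrix.ProjectiveSpecialLinearGroup (Fin 2) F) =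
      QuotientGroup.mk B) :
    ∃ r : F, r ^ 2 = 1 ∧
      (B : Matrix (Fin 2) (Fin 2) F) = r • (A : Matrix (Fin 2) (Fin 2) F) := by
  rw [QuotientGroup.eq, Matrix.SpecialLinearGroup.mem_center_iff] at h
  obtain ⟨r, hr, hA⟩ := h
  refine ⟨r, by simpa using hr, ?_⟩
  have h1 : B = A * (A⁻¹ * B) := by group
  have h2 : (Matrix.scalar (Fin 2)) r = r • (1 : Matrix (Fin 2) (Fin 2) F) := by
    rw [Matrix.smul_one_eq_diagonal]; rfl
  rw [h1, Matrix.SpecialLinearGroup.coe_mul, ← hA, h2, Matrix.mul_smul, Matrix.mul_one]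

/-- the unipotent matrix attached to a matrix of square zero -/
def o3cS {F : Type*} [Field F] (N : Matrix (Fin 2) (Fin 2) F) (hN : N * N = 0) :
    Matrix.SpecialLinearGroup (Fin 2) F := ⟨1 + N, o3c_det N hN⟩

theorem o3cS_coe {F : Type*} [Field F] (N : Matrix (Fin 2) (Fin 2) F) (hN : N * N = 0) :
    (o3cS N hN : Matrix (Fin 2) (Fin 2) F) = 1 + N := rfl

/-- the unipotent element attached to a matrix of square zero -/
noncomputable def o3cU {F : Type*} [Field F] (N : Matrix (Fin 2) (Fin 2) F) (hN : N * N = 0) :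
    Matrix.ProjectiveSpecialLinearGroup (Fin 2) F :=
  QuotientGroup.mk (o3cS N hN)

theorem o3c_three {F : Type*} [Field F] [CharP F 3] : (3 : F) = 0 := by
  have := CharP.cast_eq_zero F 3
  exact_mod_cast this

theorem o3c_order {F : Type*} [Field F] [CharP F 3] (N : Matrix (Fin 2) (Fin 2) F)
    (hN : N * N = 0) (hN0 : N ≠ 0) : orderOf (o3cU N hN) = 3 := by
  have : Fact (Nat.Prime 3) := ⟨Nat.prime_three⟩
  apply orderOf_eq_prime
  · unfold o3cU
    rw [← QuotientGroup.mk_pow]
    have : (o3cS N hN) ^ 3 = 1 := by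
      apply Subtype.ext
      rw [Matrix.SpecialLinearGroup.coe_pow, Matrix.SpecialLinearGroup.coe_one, o3cS_coe]
      rw [add_pow_char_of_commute 3 (Commute.one_left N), one_pow, pow_succ, pow_two, hN,
        Matrix.zero_mul, add_zero]
    rw [this]; rfl
  · intro h
    have h' : (QuotientGroup.mk (1 : Matrix.SpecialLinearGroup (Fin 2) F) :
        Matrix.ProjectiveSpecialLinearGroup (Fin 2) F) =
        QuotientGroup.mk (o3cS N hN) := by
      rw [QuotientGroup.mk_one]; exact h.symm
    obtain ⟨r, hr, hB⟩ := o3c_eq_of_mk _ _ h'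
    rw [Matrix.SpecialLinearGroup.coe_one, o3cS_coe] at hB
    have hN' : N = (r - 1) • (1 : Matrix (Fin 2) (Fin 2) F) := by
      rw [sub_smul, one_smul, ← hB]; abel
    have h00 := congrFun (congrFun hN 0) 0
    rw [hN'] at h00
    simp [Matrix.mul_apply, Fin.sum_univ_two] at h00
    apply hN0
    rw [hN', sub_eq_zero.mp h00, sub_self, zero_smul]

theorem o3c_inj {F : Type*} [Field F] [CharP F 3] (N N' : Matrix (Fin 2) (Fin 2) F)
    (hN : N * N = 0) (hN' : N' * N' = 0) (h : o3cU N hN = o3cU N' hN') : N = N' := by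
  obtain ⟨r, hr, hB⟩ := o3c_eq_of_mk _ _ h
  rw [o3cS_coe, o3cS_coe] at hB
  have h3 : (3 : F) = 0 := o3c_three
  have hr' : r = 1 ∨ r = -1 := by
    have : (r - 1) * (r + 1) = 0 := by linear_combination hr
    rcases mul_eq_zero.mp this with h | h
    · left; linear_combination h
    · right; linear_combination h
  rcases hr' with rfl | rfl
  · rw [one_smul] at hB
    exact (add_left_cancel hB).symm
  · exfalso
    have ht := congrArg Matrix.trace hB
    rw [Matrix.trace_add, Matrix.trace_smul, Matrix.trace_add, (o3c_tr_det N hN).1,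
      (o3c_tr_det N' hN').1, Matrix.trace_one] at ht
    simp at ht
    have : (1 : F) = 0 := by linear_combination ht - h3
    exact one_ne_zero this

theorem o3c_surj {F : Type*} [Field F] [Fintype F] [CharP F 3]
    (x : Matrix.ProjectiveSpecialLinearGroup (Fin 2) F) (hx : orderOf x = 3) :
    ∃ (N : Matrix (Fin 2) (Fin 2) F) (hN : N * N = 0), N ≠ 0 ∧ o3cU N hN = x := by
  have : Fact (Nat.Prime 3) := ⟨Nat.prime_three⟩
  have hx3 : x ^ 3 = 1 := by rw [← hx]; exact pow_orderOf_eq_one x
  have hx1 : x ≠ 1 := by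
    intro h; rw [h, orderOf_one] at hx; omega
  obtain ⟨A, rfl⟩ := QuotientGroup.mk_surjective x
  rw [← QuotientGroup.mk_pow, QuotientGroup.eq_one_iff] at hx3
  rw [Matrix.SpecialLinearGroup.mem_center_iff] at hx3
  obtain ⟨r, hr, hA⟩ := hx3
  simp only [Fintype.card_fin] at hr
  have hA' : (A : Matrix (Fin 2) (Fin 2) F) ^ 3 = r • (1 : Matrix (Fin 2) (Fin 2) F) := by
    rw [← Matrix.SpecialLinearGroup.coe_pow, ← hA, Matrix.smul_one_eq_diagonal]
    rfl
  have hr3' : r ^ 3 = r := by
    rw [pow_succ, hr, one_mul]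
  have hcomm : Commute (A : Matrix (Fin 2) (Fin 2) F) (r • (1 : Matrix (Fin 2) (Fin 2) F)) :=
    (Commute.one_right _).smul_right r
  have hN : ((A : Matrix (Fin 2) (Fin 2) F) - r • (1 : Matrix (Fin 2) (Fin 2) F)) ^ 3 = 0 := by
    have := sub_pow_char_pow_of_commute 3 1 hcomm
    rw [pow_one] at this
    rw [this, hA', smul_pow, one_pow, hr3', sub_self]
  have hNN := p3_nilp _ _ hN
  set N0 : Matrix (Fin 2) (Fin 2) F :=
    (A : Matrix (Fin 2) (Fin 2) F) - r • (1 : Matrix (Fin 2) (Fin 2) F) with hN0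
  have hN2 : (r • N0) * (r • N0) = 0 := by
    rw [Matrix.smul_mul, Matrix.mul_smul, hNN, smul_zero, smul_zero]
  have hkey : (1 : Matrix (Fin 2) (Fin 2) F) + r • N0 = r • (A : Matrix (Fin 2) (Fin 2) F) := by
    rw [hN0, smul_sub, smul_smul, ← pow_two, hr, one_smul]; abel
  refine ⟨r • N0, hN2, ?_, ?_⟩
  · intro h0
    apply hx1
    rw [h0, add_zero] at hkey
    have hA1 : (A : Matrix (Fin 2) (Fin 2) F) = r • (1 : Matrix (Fin 2) (Fin 2) F) := by
      rw [hkey, smul_smul, ← pow_two, hr, one_smul]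
    have := o3c_mk_eq (1 : Matrix.SpecialLinearGroup (Fin 2) F) A r hr
      (by rw [Matrix.SpecialLinearGroup.coe_one]; exact hA1)
    rw [← this]; rfl
  · unfold o3cU
    exact (o3c_mk_eq A _ r hr hkey).symm

/-- the parametrization of the matrices of square zero by `F × F` -/
noncomputable def o3cNil {F : Type*} [Field F] (p : F × F) : Matrix (Fin 2) (Fin 2) F :=
  open Classical in
  if p.1 = 0 then !![0, p.2; 0, 0] else !![p.2, -(p.2 ^ 2) / p.1; p.1, -p.2]

theorem o3cNil_sq {F : Type*} [Field F] (p : F × F) : o3cNil p * o3cNil p = 0 := by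
  unfold o3cNil
  split_ifs with h
  · ext i j
    fin_cases i <;> fin_cases j <;> simp [Matrix.mul_apply, Fin.sum_univ_two]
  · ext i j
    fin_cases i <;> fin_cases j <;> simp [Matrix.mul_apply, Fin.sum_univ_two] <;>
      field_simp <;> ring

theorem o3cNil_10 {F : Type*} [Field F] (p : F × F) : o3cNil p 1 0 = p.1 := by
  unfold o3cNil
  split_ifs with h
  · simp [h]
  · simp

theorem o3cNil_inj {F : Type*} [Field F] : Function.Injective (o3cNil (F := F)) := by
  intro p p' h
  have h1 : p.1 = p'.1 := by rw [← o3cNil_10 p, ← o3cNil_10 p', h]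
  have h2 : p.2 = p'.2 := by
    unfold o3cNil at h
    by_cases hc : p.1 = 0
    · have hc' : p'.1 = 0 := h1 ▸ hc
      rw [if_pos hc, if_pos hc'] at h
      have := congrFun (congrFun h 0) 1
      simpa using this
    · have hc' : ¬ p'.1 = 0 := h1 ▸ hc
      rw [if_neg hc, if_neg hc'] at h
      have := congrFun (congrFun h 0) 0
      simpa using this
  exact Prod.ext h1 h2

theorem o3cNil_surj {F : Type*} [Field F] (N : Matrix (Fin 2) (Fin 2) F) (hN : N * N = 0) :
    ∃ p : F × F, o3cNil p = N := by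
  have h00 := congrFun (congrFun hN 0) 0
  have h10 := congrFun (congrFun hN 1) 0
  have h11 := congrFun (congrFun hN 1) 1
  simp only [Matrix.mul_apply, Fin.sum_univ_two, Matrix.zero_apply] at h00 h10 h11
  by_cases hc : N 1 0 = 0
  · refine ⟨(0, N 0 1), ?_⟩
    rw [hc, mul_zero, add_zero] at h00
    rw [hc, zero_mul, zero_add] at h11
    have ha : N 0 0 = 0 := mul_self_eq_zero.mp h00
    have hd : N 1 1 = 0 := mul_self_eq_zero.mp h11
    unfold o3cNil
    rw [if_pos rfl]
    ext i j
    fin_cases i <;> fin_cases j <;> simp [ha, hd, hc]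
  · refine ⟨(N 1 0, N 0 0), ?_⟩
    have htr : N 0 0 + N 1 1 = 0 := by
      have : N 1 0 * (N 0 0 + N 1 1) = 0 := by linear_combination h10
      rcases mul_eq_zero.mp this with h | h
      · exact absurd h hc
      · exact h
    unfold o3cNil
    rw [if_neg hc]
    ext i j
    fin_cases i <;> fin_cases j <;> simp
    · field_simp
      linear_combination -h00
    · linear_combination -htr

theorem o3cNil_zero {F : Type*} [Field F] : o3cNil ((0, 0) : F × F) = 0 := by
  unfold o3cNil
  rw [if_pos rfl]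
  ext i j
  fin_cases i <;> fin_cases j <;> simp

theorem o3c_prod {H : Type*} [Group H] (p : Multiplicative (ZMod 2) × H) (hp : orderOf p = 3) :
    p.1 = 1 ∧ orderOf p.2 = 3 := by
  have h3 : p ^ 3 = 1 := by rw [← hp]; exact pow_orderOf_eq_one p
  have h31 : p.1 ^ 3 = 1 := by have := congrArg Prod.fst h3; simpa using this
  have h21 : p.1 ^ 2 = 1 := by
    have := pow_card_eq_one' (G := Multiplicative (ZMod 2)) (x := p.1)
    rwa [Nat.card_eq_fintype_card, Fintype.card_multiplicative, ZMod.card] at this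
  have h1 : p.1 = 1 := by
    calc p.1 = p.1 ^ 3 * (p.1 ^ 2)⁻¹ := by group
      _ = 1 := by rw [h31, h21]; simp
  refine ⟨h1, ?_⟩
  have : p = MonoidHom.inr (Multiplicative (ZMod 2)) H p.2 := by
    apply Prod.ext
    · simp [h1]
    · simp
  have hinj : Function.Injective (MonoidHom.inr (Multiplicative (ZMod 2)) H) :=
    fun a b h => by simpa using h
  rw [this, orderOf_injective _ hinj] at hp
  exact hp

/-- the number of elements of order 3 of `PSL₂(F)`, `F` of characteristic 3 -/
theorem o3c_card_psl {F : Type*} [Field F] [Fintype F] [CharP F 3] :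
    Nat.card {x : Matrix.ProjectiveSpecialLinearGroup (Fin 2) F // orderOf x = 3} =
      Fintype.card F ^ 2 - 1 := by
  classical
  have hnz : ∀ p : {p : F × F // p ≠ (0, 0)}, o3cNil p.1 ≠ 0 := by
    intro p h
    rw [← o3cNil_zero] at h
    exact p.2 (o3cNil_inj h)
  let f : {p : F × F // p ≠ (0, 0)} →
      {x : Matrix.ProjectiveSpecialLinearGroup (Fin 2) F // orderOf x = 3} :=
    fun p => ⟨o3cU (o3cNil p.1) (o3cNil_sq p.1), o3c_order _ _ (hnz p)⟩
  have hf : Function.Bijective f := by
    constructor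
    · intro p p' h
      have h1 : o3cU (o3cNil p.1) (o3cNil_sq p.1) = o3cU (o3cNil p'.1) (o3cNil_sq p'.1) :=
        congrArg Subtype.val h
      exact Subtype.ext (o3cNil_inj (o3c_inj _ _ _ _ h1))
    · intro x
      obtain ⟨N, hN, hN0, hNx⟩ := o3c_surj x.1 x.2
      obtain ⟨p, rfl⟩ := o3cNil_surj N hN
      refine ⟨⟨p, ?_⟩, Subtype.ext hNx⟩
      intro hp
      rw [hp, o3cNil_zero] at hN0
      exact hN0 rfl
  rw [← Nat.card_congr (Equiv.ofBijective f hf), Nat.card_eq_fintype_card,
    Fintype.card_subtype_compl, Fintype.card_subtype_eq, Fintype.card_prod, pow_two]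

/-- PIECE ORD3C -/
theorem card_orderOf_three_centralizer {G : Type*} [Group G] [Finite G] {F : Type*} [Field F]
    [Fintype F] [CharP F 3] (a : G)
    (e : ↥(Subgroup.centralizer ({a} : Set G)) ≃*
      Multiplicative (ZMod 2) × Matrix.ProjectiveSpecialLinearGroup (Fin 2) F) :
    Nat.card {v : G // orderOf v = 3 ∧ v * a = a * v} = Fintype.card F ^ 2 - 1 := by
  rw [← o3c_card_psl]
  have e1 : {v : G // orderOf v = 3 ∧ v * a = a * v} ≃
      {x : ↥(Subgroup.centralizer ({a} : Set G)) // orderOf x = 3} :=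
    { toFun := fun v => ⟨⟨v.1, Subgroup.mem_centralizer_iff.mpr (fun h hh => by
          rw [Set.mem_singleton_iff] at hh; subst hh; exact v.2.2.symm)⟩, by
          rw [← Subgroup.orderOf_coe]; exact v.2.1⟩
      invFun := fun x => ⟨x.1.1, by rw [Subgroup.orderOf_coe]; exact x.2,
          (Subgroup.mem_centralizer_iff.mp x.1.2 a rfl).symm⟩
      left_inv := fun v => rfl
      right_inv := fun x => rfl }
  have e2 : {x : ↥(Subgroup.centralizer ({a} : Set G)) // orderOf x = 3} ≃
      {p : Multiplicative (ZMod 2) × Matrix.ProjectiveSpecialLinearGroup (Fin 2) F //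
        orderOf p = 3} :=
    e.toEquiv.subtypeEquiv (fun x => by
      change orderOf x = 3 ↔ orderOf (e x) = 3
      rw [MulEquiv.orderOf_eq])
  have e3 : {p : Multiplicative (ZMod 2) × Matrix.ProjectiveSpecialLinearGroup (Fin 2) F //
        orderOf p = 3} ≃
      {x : Matrix.ProjectiveSpecialLinearGroup (Fin 2) F // orderOf x = 3} :=
    { toFun := fun p => ⟨p.1.2, (o3c_prod p.1 p.2).2⟩
      invFun := fun y => ⟨MonoidHom.inr (Multiplicative (ZMod 2)) _ y.1, by
          rw [orderOf_injective _ (fun a b h => by simpa using h)]; exact y.2⟩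
      left_inv := fun p => Subtype.ext (Prod.ext (o3c_prod p.1 p.2).1.symm rfl)
      right_inv := fun y => rfl }
  exact Nat.card_congr (e1.trans (e2.trans e3))

end Cfsg.Agent.Helper28
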